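import Cfsg.Agent.H978.Bs.Herm
import Cfsg.Agent.H358.Bs.Trick
import Cfsg.Agent.H847.Bs.Stmts

/-!
# S5733, BS22: the trick for `SU` (helper978)
-/

set_option autoImplicit false
set_option linter.unusedSectionVars false

namespace Cfsg.Agent.H978.Bs

open Cfsg.Agent.H847.Bs Module Subgroup
open Cfsg.Agent.H851.Dg (nd)

section mu

variable {F : Type*} [Field F] [Finite F] {r : ℕ}

/-- the roots of unity -/
def mu (F : Type*) [Field F] (r : ℕ) : Subgroup Fˣ := (powMonoidHom (r + 1) : Fˣ →* Fˣ).ker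

theorem mem_mu {u : Fˣ} : u ∈ mu F r ↔ u ^ (r + 1) = 1 := Iff.rfl

theorem card_mu (hF : Nat.card F = r ^ 2) (hr : 1 < r) : Nat.card (mu F r) = r + 1 := by
  unfold mu
  rw [IsCyclic.card_powMonoidHom_ker, Nat.card_units, hF]
  apply Nat.gcd_eq_right
  refine ⟨r - 1, ?_⟩
  obtain ⟨k, rfl⟩ : ∃ k, r = k + 1 := ⟨r - 1, by omega⟩
  rw [Nat.add_sub_cancel]
  have : (k + 1) ^ 2 = (k + 1 + 1) * k + 1 := by ring
  omega

end mu

section SU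

variable {F V : Type} [Field F] [Finite F] [AddCommGroup V] [Module F V] [Module.Finite F V] {Φ : Frm F V} {r : ℕ}

theorem fin_gl (F V : Type) [Field F] [Finite F] [AddCommGroup V] [Module F V] [Module.Finite F V] :
    Finite (V ≃ₗ[F] V) := by
  have : Finite V := Module.finite_of_finite F
  exact Finite.of_injective (fun e : V ≃ₗ[F] V => (e : V → V)) DFunLike.coe_injective

/-- the determinant of isometries -/
noncomputable def dt (h : IsHerm r Φ) : Φ.Iso →* mu F r :=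
  (LinearEquiv.det.comp Φ.Iso.subtype).codRestrict (mu F r) (fun g => by
    rw [mem_mu]
    apply Units.ext
    rw [Units.val_pow_eq_pow_val, Units.val_one]
    have h1 : (((LinearEquiv.det.comp Φ.Iso.subtype) g : Fˣ) : F) = LinearMap.det ((g : V ≃ₗ[F] V) : V →ₗ[F] V) :=
      LinearEquiv.coe_det _
    rw [h1]
    exact det_pow h g.2)

theorem dt_val (h : IsHerm r Φ) (g : Φ.Iso) : (((dt h g : mu F r) : Fˣ) : F) = LinearMap.det ((g : V ≃ₗ[F] V) : V →ₗ[F] V) :=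
  LinearEquiv.coe_det _

/-- the isometries with determinant in `mu ^ 4` -/
def AA (r : ℕ) (Φ : Frm F V) : Set (V ≃ₗ[F] V) :=
  {a | a ∈ Φ.Iso ∧ ∃ l : F, l ^ (r + 1) = 1 ∧ LinearMap.det (a : V →ₗ[F] V) = l ^ 4}

theorem card_AA (h : IsHerm r Φ) : Nat.card Φ.Iso ≤ 4 * Nat.card (AA r Φ) := by
  have hfin := fin_gl F V
  let R : Subgroup (mu F r) := (powMonoidHom 4 : mu F r →* mu F r).range
  have h1 : (R.comap (dt h)).index ∣ R.index := by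
    rw [index_comap]
    exact relIndex_dvd_index_of_normal R _
  have h2 : R.index ∣ 4 := by
    rw [IsCyclic.index_powMonoidHom_range]
    exact Nat.gcd_dvd_right _ _
  have h3 := Nat.le_of_dvd (by norm_num) (h1.trans h2)
  rw [← card_mul_index (R.comap (dt h)), mul_comm]
  refine Nat.mul_le_mul h3 ?_
  refine Nat.card_le_card_of_injective (fun x : ↥(R.comap (dt h)) => (⟨x.1.1, x.1.2, ?_⟩ : AA r Φ)) ?_
  · obtain ⟨l, hl⟩ := x.2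
    refine ⟨((l : Fˣ) : F), ?_, ?_⟩
    · rw [← Units.val_pow_eq_pow_val, mem_mu.1 l.2, Units.val_one]
    · rw [← dt_val h, ← hl]
      rfl
  · intro x y hxy
    exact Subtype.ext (Subtype.ext (congrArg (fun a : AA r Φ => (a : V ≃ₗ[F] V)) hxy))

end SU

/-- BS06 (3) -/
def HAdj : Prop := ∀ (r : ℕ) (F V : Type) [Field F] [Finite F] [AddCommGroup V] [Module F V] [Module.Finite F V]
  (Φ : Frm F V), IsHerm r Φ → ∀ d : ℕ, finrank F V = d → Odd d → 9 ≤ d → ∀ κ : F, κ ^ (r + 1) = 1 →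
  Nat.card Φ.Iso ≤ 4 * d * (r + 1) * Nat.card {x : V ≃ₗ[F] V // x ∈ Φ.Bm ∧ LinearMap.det (x : V →ₗ[F] V) = κ}

/-- BS11 -/
def HCount : Prop := ∃ c : ℝ, 0 < c ∧ ∃ K₀ : ℕ, ∀ (r : ℕ) (F V : Type) [Field F] [Finite F] [AddCommGroup V]
  [Module F V] [Module.Finite F V] (Φ : Frm F V), IsHerm r Φ → ∀ n K : ℕ, K₀ ≤ K → finrank F V = n → 2 * K < n →
  c / (K + 1) * (Nat.card Φ.Iso : ℝ) ≤ Nat.card ↥(Φ.SS K n)

/-- BS01 (4) -/
def HTrick : Prop := ∀ (G : Type) [Group G] [Finite G] (M K₀ : Subgroup G) (E : Set G) (c ε : ℝ), 0 < c → 0 < ε →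
  K₀ ≤ M → E ⊆ M → (∀ y ∈ E, ∀ k ∈ K₀, y * k ∈ E) → (∀ g, ∀ x ∈ E, g * x * g⁻¹ ∈ E → g ∈ M) →
  (∀ y ∈ E, ∃ z, ∃ k ∈ K₀, (∀ l ∈ K₀, z * l = l * z) ∧ y = z * k) → c * (Nat.card M : ℝ) ≤ Nat.card E → RB ε K₀ →
  ∀ H : Subgroup G, 4 * (nd H : ℝ) < c * min 1 ε * Nat.card G → ∃ g : G, ∀ k ∈ K₀, g * k * g⁻¹ ∈ H

/-- BS40 -/
def HBase : Prop := ∃ ε : ℝ, 0 < ε ∧ ∀ (r : ℕ) (F V : Type) [Field F] [Finite F] [AddCommGroup V] [Module F V]
  [Module.Finite F V] (Φ : Frm F V), IsHerm r Φ → finrank F V = 4 → RB ε ↥(Φ.Iso ⊓ slV F V)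

theorem RB_congr {c : ℝ} {G G' : Type*} [Group G] [Group G'] (e : G ≃* G') (h : RB c G) : RB c G' := by
  intro K hK
  have h1 : K.comap e.toMonoidHom ≠ ⊤ := by
    intro h2
    apply hK
    rw [eq_top_iff]
    intro x _
    have h3 : e.symm x ∈ K.comap e.toMonoidHom := by rw [h2]; trivial
    have h4 : e (e.symm x) ∈ K := h3
    rwa [e.apply_symm_apply] at h4
  have h2 := h _ h1
  rw [Nat.card_congr e.toEquiv] at h2
  refine h2.trans (le_of_eq ?_)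
  congr 1
  unfold nd
  refine Nat.card_congr (e.toEquiv.subtypeEquiv fun x => ?_)
  constructor
  · intro h3 g hg
    apply h3 (e.symm g)
    show e (e.symm g * x * (e.symm g)⁻¹) ∈ K
    rw [map_mul, map_mul, map_inv, e.apply_symm_apply]
    exact hg
  · intro h3 g hg
    apply h3 (e g)
    have h4 : e (g * x * g⁻¹) ∈ K := hg
    rwa [map_mul, map_mul, map_inv] at h4

section SU

variable {F V : Type} [Field F] [Finite F] [AddCommGroup V] [Module F V] [Module.Finite F V] {Φ : Frm F V} {r : ℕ}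

theorem dt_surj (hadj : HAdj) (h : IsHerm r Φ) {d : ℕ} (hd : finrank F V = d) (ho : Odd d) (h9 : 9 ≤ d) :
    Function.Surjective (dt h) := by
  intro κ
  have hκ : ((κ : Fˣ) : F) ^ (r + 1) = 1 := by
    rw [← Units.val_pow_eq_pow_val, mem_mu.1 κ.2, Units.val_one]
  have hfin := fin_gl F V
  have h1 := hadj r F V Φ h d hd ho h9 ((κ : Fˣ) : F) hκ
  have h2 : 0 < Nat.card Φ.Iso := Nat.card_pos
  have h3 : Nat.card {x : V ≃ₗ[F] V // x ∈ Φ.Bm ∧ LinearMap.det (x : V →ₗ[F] V) = ((κ : Fˣ) : F)} ≠ 0 := by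
    intro h4
    rw [h4, mul_zero] at h1
    omega
  obtain ⟨⟨x, hx, hdx⟩⟩ := (Nat.card_ne_zero.1 h3).1
  refine ⟨⟨x, hx.1⟩, ?_⟩
  apply Subtype.ext
  apply Units.ext
  rw [dt_val]
  exact hdx

variable {W D U : Submodule F V} (H : Dec3 Φ W D U)

theorem dt_prod (hW : IsHerm r (Φ.on W)) (hD : IsHerm r (Φ.on D)) (hU : IsHerm r (Φ.on U)) (a : (Φ.on W).Iso)
    (b : (Φ.on D).Iso) (v : (Φ.on U).Iso) : (((dt hW a * (dt hD b * dt hU v) : mu F r) : Fˣ) : F) =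
      LinearMap.det ((a : W ≃ₗ[F] W) : W →ₗ[F] W) * (LinearMap.det ((b : D ≃ₗ[F] D) : D →ₗ[F] D) *
        LinearMap.det ((v : U ≃ₗ[F] U) : U →ₗ[F] U)) := by
  rw [← dt_val hW, ← dt_val hD, ← dt_val hU]
  rfl

/-- the triples in `SU` -/
noncomputable def PS : Subgroup ((W ≃ₗ[F] W) × (D ≃ₗ[F] D) × (U ≃ₗ[F] U)) := (Φ.Iso ⊓ slV F V).comap H.Θ

theorem mem_PS {p : (W ≃ₗ[F] W) × (D ≃ₗ[F] D) × (U ≃ₗ[F] U)} : p ∈ PS H ↔ (p.1 ∈ (Φ.on W).Iso ∧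
    p.2.1 ∈ (Φ.on D).Iso ∧ p.2.2 ∈ (Φ.on U).Iso) ∧ LinearMap.det (p.1 : W →ₗ[F] W) *
      (LinearMap.det (p.2.1 : D →ₗ[F] D) * LinearMap.det (p.2.2 : U →ₗ[F] U)) = 1 := by
  rw [← H.Θ_mem, ← H.Θ_det]
  exact Iff.rfl

theorem mem_PS_of {p : (W ≃ₗ[F] W) × (D ≃ₗ[F] D) × (U ≃ₗ[F] U)} {g : V ≃ₗ[F] V} (hg : g ∈ Φ.Iso ⊓ slV F V)
    (hp : H.Θ p = g) : p ∈ PS H := by
  show H.Θ p ∈ Φ.Iso ⊓ slV F V
  rw [hp]
  exact hg

/-- into `SU` -/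
noncomputable def ps : PS H →* ↥(Φ.Iso ⊓ slV F V) where
  toFun p := ⟨H.Θ p, p.2⟩
  map_one' := Subtype.ext (map_one H.Θ)
  map_mul' p p' := Subtype.ext (map_mul H.Θ p.1 p'.1)

theorem ps_inj : Function.Injective (ps H) := by
  intro p p' h
  exact Subtype.ext (H.Θ_inj (congrArg Subtype.val h))

/-- `SU(W)` -/
noncomputable def kk : ↥((Φ.on W).Iso ⊓ slV F W) →* ↥(Φ.Iso ⊓ slV F V) where
  toFun a := ⟨H.Θ (a.1, 1, 1), (mem_PS H).2 ⟨⟨a.2.1, one_mem _, one_mem _⟩, by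
    have h1 : LinearMap.det ((a.1 : W ≃ₗ[F] W) : W →ₗ[F] W) = 1 := a.2.2
    show LinearMap.det ((a.1 : W ≃ₗ[F] W) : W →ₗ[F] W) *
      (LinearMap.det (LinearMap.id : D →ₗ[F] D) * LinearMap.det (LinearMap.id : U →ₗ[F] U)) = 1
    rw [h1, LinearMap.det_id, LinearMap.det_id, one_mul, one_mul]⟩⟩
  map_one' := Subtype.ext (map_one H.Θ)
  map_mul' a a' := by
    apply Subtype.ext
    show H.Θ (a.1 * a'.1, 1, 1) = H.Θ (a.1, 1, 1) * H.Θ (a'.1, 1, 1)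
    rw [← map_mul, Prod.mk_mul_mk, Prod.mk_mul_mk, one_mul, one_mul]

theorem kk_inj : Function.Injective (kk H) := by
  intro a a' h
  have h1 := H.Θ_inj (congrArg Subtype.val h)
  exact Subtype.ext (congrArg Prod.fst h1)

/-- the elements of the trick -/
def EE (r K n : ℕ) : Set ↥(Φ.Iso ⊓ slV F V) :=
  {g | ∃ p, H.Θ p = (g : V ≃ₗ[F] V) ∧ p.1 ∈ AA r (Φ.on W) ∧ p.2.1 ∈ (Φ.on D).Bm ∧ p.2.2 ∈ (Φ.on U).SS K n}

theorem card_M (h : IsHerm r Φ) (hadj : HAdj) (hd : finrank F D = 9) :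
    (r + 1) * Nat.card (ps H).range ≤ Nat.card (Φ.on W).Iso * (Nat.card (Φ.on D).Iso * Nat.card (Φ.on U).Iso) := by
  have hW := IsHerm_on h H.nw
  have hD := IsHerm_on h H.nd
  have hU := IsHerm_on h H.nu
  have f1 := fin_gl F W
  have f2 := fin_gl F D
  have f3 := fin_gl F U
  let δ : (Φ.on W).Iso × (Φ.on D).Iso × (Φ.on U).Iso →* mu F r :=
    (dt hW).coprod ((dt hD).coprod (dt hU))
  have hδ : Function.Surjective δ := by
    intro κ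
    obtain ⟨x, hx⟩ := dt_surj hadj hD hd (by decide) le_rfl κ
    refine ⟨(1, x, 1), ?_⟩
    show dt hW 1 * (dt hD x * dt hU 1) = κ
    rw [map_one, map_one, one_mul, mul_one, hx]
  have h1 : Nat.card ((Φ.on W).Iso × (Φ.on D).Iso × (Φ.on U).Iso) = (r + 1) * Nat.card δ.ker := by
    rw [card_eq_card_quotient_mul_card_subgroup δ.ker,
      Nat.card_congr (QuotientGroup.quotientKerEquivOfSurjective δ hδ).toEquiv, card_mu h.card (r_gt h)]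
  rw [Nat.card_prod, Nat.card_prod] at h1
  rw [h1]
  refine Nat.mul_le_mul_left _ ?_
  rw [Nat.card_congr (MonoidHom.ofInjective (ps_inj H)).symm.toEquiv]
  refine Nat.card_le_card_of_injective (fun p : PS H => (⟨(⟨p.1.1, ((mem_PS H).1 p.2).1.1⟩,
    ⟨p.1.2.1, ((mem_PS H).1 p.2).1.2.1⟩, ⟨p.1.2.2, ((mem_PS H).1 p.2).1.2.2⟩), ?_⟩ : δ.ker)) ?_
  · rw [MonoidHom.mem_ker]
    apply Subtype.ext
    apply Units.ext
    exact (dt_prod hW hD hU ⟨p.1.1, ((mem_PS H).1 p.2).1.1⟩ ⟨p.1.2.1, ((mem_PS H).1 p.2).1.2.1⟩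
      ⟨p.1.2.2, ((mem_PS H).1 p.2).1.2.2⟩).trans ((mem_PS H).1 p.2).2
  · intro p p' hpp
    have h2 := congrArg (fun q : δ.ker => q.1) hpp
    refine Subtype.ext (Prod.ext ?_ (Prod.ext ?_ ?_))
    · exact congrArg (fun q : (Φ.on W).Iso × (Φ.on D).Iso × (Φ.on U).Iso => (q.1 : W ≃ₗ[F] W)) h2
    · exact congrArg (fun q : (Φ.on W).Iso × (Φ.on D).Iso × (Φ.on U).Iso => (q.2.1 : D ≃ₗ[F] D)) h2
    · exact congrArg (fun q : (Φ.on W).Iso × (Φ.on D).Iso × (Φ.on U).Iso => (q.2.2 : U ≃ₗ[F] U)) h2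

theorem card_E (h : IsHerm r Φ) (hadj : HAdj) (hd : finrank F D = 9) (K n : ℕ) :
    Nat.card (AA r (Φ.on W)) * Nat.card ↥((Φ.on U).SS K n) * Nat.card (Φ.on D).Iso ≤
      36 * (r + 1) * Nat.card (EE H r K n) := by
  have hW := IsHerm_on h H.nw
  have hD := IsHerm_on h H.nd
  have hU := IsHerm_on h H.nu
  have f1 := fin_gl F W
  have f2 := fin_gl F D
  have f3 := fin_gl F U
  have f4 := fin_gl F V
  let κ : AA r (Φ.on W) × ↥((Φ.on U).SS K n) → F := fun q =>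
    (LinearMap.det ((q.1 : W ≃ₗ[F] W) : W →ₗ[F] W) * LinearMap.det ((q.2 : U ≃ₗ[F] U) : U →ₗ[F] U))⁻¹
  have hκ : ∀ q, κ q ^ (r + 1) = 1 := by
    intro q
    show (_)⁻¹ ^ (r + 1) = 1
    rw [inv_pow, mul_pow, det_pow hW q.1.2.1, det_pow hU q.2.2.1, one_mul, inv_one]
  have hfib : ∀ q, Nat.card (Φ.on D).Iso ≤ 36 * (r + 1) *
      Nat.card {x : D ≃ₗ[F] D // x ∈ (Φ.on D).Bm ∧ LinearMap.det (x : D →ₗ[F] D) = κ q} := fun q =>
    hadj r F D (Φ.on D) hD 9 hd (by decide) le_rfl (κ q) (hκ q)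
  have hft : Finite (AA r (Φ.on W) × ↥((Φ.on U).SS K n)) := inferInstance
  let _ : Fintype (AA r (Φ.on W) × ↥((Φ.on U).SS K n)) := Fintype.ofFinite _
  have h1 : Nat.card (Σ q : AA r (Φ.on W) × ↥((Φ.on U).SS K n),
      {x : D ≃ₗ[F] D // x ∈ (Φ.on D).Bm ∧ LinearMap.det (x : D →ₗ[F] D) = κ q}) ≤ Nat.card (EE H r K n) := by
    refine Nat.card_le_card_of_injective (fun s => ⟨⟨H.Θ (s.1.1, s.2.1, s.1.2), (mem_PS H).2
      ⟨⟨s.1.1.2.1, s.2.2.1.1, s.1.2.2.1⟩, ?_⟩⟩, _, rfl, s.1.1.2, s.2.2.1, s.1.2.2⟩) ?_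
    · show LinearMap.det ((s.1.1 : W ≃ₗ[F] W) : W →ₗ[F] W) * (LinearMap.det (s.2.1 : D →ₗ[F] D) *
        LinearMap.det ((s.1.2 : U ≃ₗ[F] U) : U →ₗ[F] U)) = 1
      rw [s.2.2.2]
      have e1 : LinearMap.det ((s.1.1 : W ≃ₗ[F] W) : W →ₗ[F] W) * LinearMap.det ((s.1.2 : U ≃ₗ[F] U) : U →ₗ[F] U) ≠ 0 := by
        refine mul_ne_zero ?_ ?_
        · exact (LinearEquiv.isUnit_det' _).ne_zero
        · exact (LinearEquiv.isUnit_det' _).ne_zero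
      show _ * ((_)⁻¹ * _) = 1
      rw [mul_comm (_)⁻¹, ← mul_assoc]
      exact mul_inv_cancel₀ e1
    · rintro ⟨⟨a, v⟩, x⟩ ⟨⟨a', v'⟩, x'⟩ hss
      have h2 := congrArg (fun g : EE H r K n => ((g : ↥(Φ.Iso ⊓ slV F V)) : V ≃ₗ[F] V)) hss
      have h3 := H.Θ_inj h2
      have e1 : a = a' := Subtype.ext (congrArg Prod.fst h3)
      have e2 : v = v' := Subtype.ext (congrArg (fun q : (W ≃ₗ[F] W) × (D ≃ₗ[F] D) × (U ≃ₗ[F] U) => q.2.2) h3)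
      have e3 : x.1 = x'.1 := congrArg (fun q : (W ≃ₗ[F] W) × (D ≃ₗ[F] D) × (U ≃ₗ[F] U) => q.2.1) h3
      subst e1
      subst e2
      congr 1
      exact Subtype.ext e3
  rw [Nat.card_sigma] at h1
  calc Nat.card (AA r (Φ.on W)) * Nat.card ↥((Φ.on U).SS K n) * Nat.card (Φ.on D).Iso
      = ∑ _q : AA r (Φ.on W) × ↥((Φ.on U).SS K n), Nat.card (Φ.on D).Iso := by
        rw [Finset.sum_const, Finset.card_univ, ← Nat.card_eq_fintype_card, Nat.card_prod, smul_eq_mul]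
    _ ≤ ∑ q : AA r (Φ.on W) × ↥((Φ.on U).SS K n), 36 * (r + 1) *
        Nat.card {x : D ≃ₗ[F] D // x ∈ (Φ.on D).Bm ∧ LinearMap.det (x : D →ₗ[F] D) = κ q} :=
        Finset.sum_le_sum fun q _ => hfib q
    _ = 36 * (r + 1) * ∑ q : AA r (Φ.on W) × ↥((Φ.on U).SS K n),
        Nat.card {x : D ≃ₗ[F] D // x ∈ (Φ.on D).Bm ∧ LinearMap.det (x : D →ₗ[F] D) = κ q} := by rw [Finset.mul_sum]
    _ ≤ _ := Nat.mul_le_mul_left _ h1

theorem scal_mem (h : IsHerm r Φ) {l : F} (hl : l ^ (r + 1) = 1) (hl0 : l ≠ 0) :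
    LinearEquiv.smulOfNeZero F V l hl0 ∈ Φ.Iso := by
  refine ⟨fun x y => ?_, fun x => ?_⟩
  · show Φ.B (l • x) (l • y) = Φ.B x y
    rw [Φ.smul_left, Φ.smul_right, h.s, ← mul_assoc, ← pow_succ', hl, one_mul]
  · rw [h.q, h.q]

theorem scal_comm {l : F} (hl0 : l ≠ 0) (a : V ≃ₗ[F] V) :
    LinearEquiv.smulOfNeZero F V l hl0 * a = a * LinearEquiv.smulOfNeZero F V l hl0 := by
  ext x
  show l • a x = a (l • x)
  rw [map_smul]

theorem scal_det {l : F} (hl0 : l ≠ 0) :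
    LinearMap.det (LinearEquiv.smulOfNeZero F V l hl0 : V →ₗ[F] V) = l ^ finrank F V := by
  have h : (LinearEquiv.smulOfNeZero F V l hl0 : V →ₗ[F] V) = l • LinearMap.id := rfl
  rw [h, LinearMap.det_smul, LinearMap.det_id, mul_one]

end SU

theorem ndV_eq {F V : Type} [Field F] [AddCommGroup V] [Module F V] {G H : Subgroup (V ≃ₗ[F] V)} :
    ndV G H = nd (H.subgroupOf G) := by
  unfold ndV nd
  refine Nat.card_congr
    { toFun := fun x => ⟨⟨x.1, x.2.1⟩, fun g hg => x.2.2 g.1 g.2 hg⟩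
      invFun := fun x => ⟨x.1.1, x.1.2, fun g hg hgx => x.2 ⟨g, hg⟩ hgx⟩
      left_inv := fun x => rfl
      right_inv := fun x => rfl }

/-- **BS22** -/
theorem trick_su (hbase : HBase) (hcount : HCount) (hadj : HAdj) (htrick : HTrick) : ∃ c : ℝ, 0 < c ∧ ∃ n₀ : ℕ,
    ∀ (r : ℕ) (F V : Type) [Field F] [Finite F] [AddCommGroup V] [Module F V] [Module.Finite F V] (Φ : Frm F V),
    IsHerm r Φ → n₀ ≤ finrank F V → ∀ H ≤ Φ.Iso ⊓ slV F V,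
    (ndV (Φ.Iso ⊓ slV F V) H : ℝ) < c * Nat.card ↥(Φ.Iso ⊓ slV F V) →
    ∃ W U : Submodule F V, Φ.Dec W U ∧ finrank F W = 4 ∧ HasOn (Φ.Iso ⊓ slV F V) H W U := by
  obtain ⟨ε, hε, hRB⟩ := hbase
  obtain ⟨c₁, hc₁, K₀, hcnt⟩ := hcount
  obtain ⟨K, hK⟩ : ∃ K, K = max K₀ 9 := ⟨_, rfl⟩
  have hK0 : K₀ ≤ K := hK ▸ le_max_left _ _
  have hK9 : 9 ≤ K := hK ▸ le_max_right _ _
  have hKp : (0 : ℝ) < (K : ℝ) + 1 := by positivity
  let c : ℝ := c₁ / (K + 1) / 144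
  have hc : 0 < c := by positivity
  have hm : 0 < min 1 ε := lt_min one_pos hε
  refine ⟨c * min 1 ε / 4, by positivity, 14 + 2 * K, ?_⟩
  intro r F V _ _ _ _ _ Φ h hn H hH hnd
  obtain ⟨W, D, U, HD, hW4, hD9, hUn⟩ := exists_dec3 h (a := 4) (b := 9) (by omega)
  have f4 := fin_gl F V
  have hrW := IsHerm_on h HD.nw
  have hrD := IsHerm_on h HD.nd
  have hrU := IsHerm_on h HD.nu
  obtain ⟨n, hn'⟩ : ∃ n, finrank F U = n := ⟨_, rfl⟩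
  have hbig : ∀ p, p.2.1 ∈ (Φ.on D).Bm → p.2.2 ∈ (Φ.on U).SS K n → Big HD K p := fun p h1 h2 =>
    ⟨h1.2, h2.2.1, by omega, by omega⟩
  have hbaseW : RB ε (kk HD).range := RB_congr (MonoidHom.ofInjective (kk_inj HD)) (hRB r F W (Φ.on W) hrW hW4)
  have hkM : (kk HD).range ≤ (ps HD).range := by
    rintro _ ⟨a, rfl⟩
    exact ⟨⟨(a.1, 1, 1), (kk HD a).2⟩, rfl⟩
  have hEM : EE HD r K n ⊆ (ps HD).range := by
    rintro g ⟨p, hp, -⟩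
    exact ⟨⟨p, mem_PS_of HD g.2 hp⟩, Subtype.ext hp⟩
  have hEK : ∀ y ∈ EE HD r K n, ∀ k ∈ (kk HD).range, y * k ∈ EE HD r K n := by
    rintro y ⟨p, hp, ⟨h1, l, h2, h3⟩, h4, h5⟩ _ ⟨a, rfl⟩
    refine ⟨p * (a.1, 1, 1), ?_, ⟨mul_mem h1 a.2.1, l, h2, ?_⟩, ?_, ?_⟩
    · rw [map_mul, hp]
      rfl
    · have h6 : LinearMap.det ((a.1 : W ≃ₗ[F] W) : W →ₗ[F] W) = 1 := a.2.2
      show LinearMap.det ((p.1 : W →ₗ[F] W) ∘ₗ ((a.1 : W ≃ₗ[F] W) : W →ₗ[F] W)) = l ^ 4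
      rw [LinearMap.det_comp, h3, h6, mul_one]
    · show p.2.1 * 1 ∈ _
      rw [mul_one]
      exact h4
    · show p.2.2 * 1 ∈ _
      rw [mul_one]
      exact h5
  have hTI : ∀ g, ∀ x ∈ EE HD r K n, g * x * g⁻¹ ∈ EE HD r K n → g ∈ (ps HD).range := by
    rintro g x ⟨p, hp, -, h1, h2⟩ ⟨p', hp', -, h3, h4⟩
    obtain ⟨i1, i2, i3⟩ := (hbig p h1 h2).ti (hbig p' h3 h4) g.2.1 (by rw [hp, hp']; rfl)
    obtain ⟨q, hq⟩ := HD.exists_Θ i1 i2 i3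
    exact ⟨⟨q, mem_PS_of HD g.2 hq⟩, Subtype.ext hq⟩
  have hz : ∀ y ∈ EE HD r K n, ∃ z, ∃ k ∈ (kk HD).range, (∀ l ∈ (kk HD).range, z * l = l * z) ∧ y = z * k := by
    rintro y ⟨p, hp, ⟨h1, l, h2, h3⟩, h4, h5⟩
    have hl0 : l ≠ 0 := by
      rintro rfl
      rw [zero_pow (Nat.succ_ne_zero r)] at h2
      exact zero_ne_one h2
    obtain ⟨s, hs⟩ : ∃ s, s = LinearEquiv.smulOfNeZero F W l hl0 := ⟨_, rfl⟩
    have hsI : s ∈ (Φ.on W).Iso := hs ▸ scal_mem hrW h2 hl0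
    have hsd : LinearMap.det (s : W →ₗ[F] W) = l ^ 4 := by rw [hs, scal_det, hW4]
    have hpm : p ∈ PS HD := mem_PS_of HD y.2 hp
    have hpm' := (mem_PS HD).1 hpm
    have hz : (s, p.2.1, p.2.2) ∈ PS HD := by
      refine (mem_PS HD).2 ⟨⟨hsI, hpm'.1.2⟩, ?_⟩
      show LinearMap.det (s : W →ₗ[F] W) * _ = 1
      rw [hsd, ← h3]
      exact hpm'.2
    have hk : s⁻¹ * p.1 ∈ (Φ.on W).Iso ⊓ slV F W := by
      refine Subgroup.mem_inf.2 ⟨(Φ.on W).Iso.mul_mem ((Φ.on W).Iso.inv_mem hsI) h1, ?_⟩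
      have e1 : s * (s⁻¹ * p.1) = p.1 := by rw [mul_inv_cancel_left]
      have e2 : LinearMap.det ((s : W →ₗ[F] W) ∘ₗ ((s⁻¹ * p.1 : W ≃ₗ[F] W) : W →ₗ[F] W)) = l ^ 4 := by
        rw [← h3]
        conv_rhs => rw [← e1]
        rfl
      rw [LinearMap.det_comp, hsd] at e2
      exact mul_left_cancel₀ (pow_ne_zero 4 hl0) (by rw [e2, mul_one])
    refine ⟨⟨HD.Θ (s, p.2.1, p.2.2), hz⟩, kk HD ⟨_, hk⟩, ⟨_, rfl⟩, ?_, ?_⟩
    · rintro _ ⟨a, rfl⟩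
      apply Subtype.ext
      show HD.Θ (s, p.2.1, p.2.2) * HD.Θ (a.1, 1, 1) = HD.Θ (a.1, 1, 1) * HD.Θ (s, p.2.1, p.2.2)
      rw [← map_mul, ← map_mul, Prod.mk_mul_mk, Prod.mk_mul_mk, Prod.mk_mul_mk, Prod.mk_mul_mk, one_mul, one_mul, mul_one,
        mul_one, hs, scal_comm]
    · apply Subtype.ext
      show (y : V ≃ₗ[F] V) = HD.Θ (s, p.2.1, p.2.2) * HD.Θ (s⁻¹ * p.1, 1, 1)
      rw [← map_mul, Prod.mk_mul_mk, Prod.mk_mul_mk, mul_inv_cancel_left, mul_one, mul_one, ← hp]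
  have hcard : c * (Nat.card (ps HD).range : ℝ) ≤ Nat.card (EE HD r K n) := by
    have i1 : ((r : ℝ) + 1) * (Nat.card (ps HD).range : ℝ) ≤
        (Nat.card (Φ.on W).Iso : ℝ) * ((Nat.card (Φ.on D).Iso : ℝ) * (Nat.card (Φ.on U).Iso : ℝ)) := by
      exact_mod_cast card_M HD h hadj hD9
    have i2 : (Nat.card (AA r (Φ.on W)) : ℝ) * (Nat.card ↥((Φ.on U).SS K n) : ℝ) * (Nat.card (Φ.on D).Iso : ℝ) ≤
        36 * ((r : ℝ) + 1) * (Nat.card (EE HD r K n) : ℝ) := by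
      exact_mod_cast card_E HD h hadj hD9 K n
    have i3 : (Nat.card (Φ.on W).Iso : ℝ) ≤ 4 * (Nat.card (AA r (Φ.on W)) : ℝ) := by
      exact_mod_cast card_AA hrW
    have i4 : c₁ / ((K : ℝ) + 1) * (Nat.card (Φ.on U).Iso : ℝ) ≤ (Nat.card ↥((Φ.on U).SS K n) : ℝ) :=
      hcnt r F U (Φ.on U) hrU n K hK0 hn' (by omega)
    have hr0 : (0 : ℝ) < (r : ℝ) + 1 := by positivity
    have hq : 0 < c₁ / ((K : ℝ) + 1) := by positivity
    have hce : c = c₁ / ((K : ℝ) + 1) / 144 := rfl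
    rw [hce]
    generalize hqe : c₁ / ((K : ℝ) + 1) = q at *
    have j1 : q * (((r : ℝ) + 1) * (Nat.card (ps HD).range : ℝ)) ≤
        144 * ((r : ℝ) + 1) * (Nat.card (EE HD r K n) : ℝ) := by
      calc q * (((r : ℝ) + 1) * (Nat.card (ps HD).range : ℝ))
          ≤ q * ((Nat.card (Φ.on W).Iso : ℝ) * ((Nat.card (Φ.on D).Iso : ℝ) * (Nat.card (Φ.on U).Iso : ℝ))) :=
            mul_le_mul_of_nonneg_left i1 hq.le
        _ = (Nat.card (Φ.on W).Iso : ℝ) * (Nat.card (Φ.on D).Iso : ℝ) * (q * (Nat.card (Φ.on U).Iso : ℝ)) := by ring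
        _ ≤ (4 * (Nat.card (AA r (Φ.on W)) : ℝ)) * (Nat.card (Φ.on D).Iso : ℝ) * (Nat.card ↥((Φ.on U).SS K n) : ℝ) := by
            gcongr
        _ = 4 * ((Nat.card (AA r (Φ.on W)) : ℝ) * (Nat.card ↥((Φ.on U).SS K n) : ℝ) * (Nat.card (Φ.on D).Iso : ℝ)) := by
            ring
        _ ≤ 4 * (36 * ((r : ℝ) + 1) * (Nat.card (EE HD r K n) : ℝ)) := by gcongr
        _ = _ := by ring
    have j2 : ((r : ℝ) + 1) * (q / 144 * (Nat.card (ps HD).range : ℝ)) ≤ ((r : ℝ) + 1) * (Nat.card (EE HD r K n) : ℝ) := by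
      have j3 : ((r : ℝ) + 1) * (q / 144 * (Nat.card (ps HD).range : ℝ)) =
          (q * (((r : ℝ) + 1) * (Nat.card (ps HD).range : ℝ))) / 144 := by ring
      rw [j3, div_le_iff₀ (by norm_num)]
      calc _ ≤ _ := j1
        _ = _ := by ring
    exact le_of_mul_le_mul_left j2 hr0
  have hH4 : 4 * (nd (H.subgroupOf (Φ.Iso ⊓ slV F V)) : ℝ) < c * min 1 ε * Nat.card ↥(Φ.Iso ⊓ slV F V) := by
    rw [ndV_eq] at hnd
    linarith
  obtain ⟨g, hg⟩ := htrick ↥(Φ.Iso ⊓ slV F V) (ps HD).range (kk HD).range (EE HD r K n) c ε hc hε hkM hEM hEK hTI hz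
    hcard hbaseW (H.subgroupOf (Φ.Iso ⊓ slV F V)) hH4
  refine ⟨W.map ((g : V ≃ₗ[F] V) : V →ₗ[F] V), (D ⊔ U).map ((g : V ≃ₗ[F] V) : V →ₗ[F] V), ⟨⟨?_, ?_⟩, ?_⟩,
    (LinearEquiv.finrank_map_eq (g : V ≃ₗ[F] V) W).trans hW4, ?_⟩
  · rw [Submodule.disjoint_def]
    rintro _ ⟨w, hw, rfl⟩ ⟨v, hv, hvw⟩
    have h1 : v = w := (g : V ≃ₗ[F] V).injective hvw
    obtain ⟨d, hd, u, hu, h2⟩ := Submodule.mem_sup.1 hv
    have h3 : w + (-d) + (-u) = 0 := by rw [← h1, ← h2]; abel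
    have h4 := (HD.indep hw (Submodule.neg_mem D hd) (Submodule.neg_mem U hu) h3).1
    rw [h4, map_zero]
  · rw [codisjoint_iff, eq_top_iff]
    intro x _
    obtain ⟨w, d, u, h1⟩ := HD.exists_sum ((g : V ≃ₗ[F] V).symm x)
    have h2 : x = (g : V ≃ₗ[F] V) w + (g : V ≃ₗ[F] V) (d + u) := by
      rw [← map_add, ← h1, LinearEquiv.apply_symm_apply]
    rw [h2]
    exact Submodule.add_mem_sup ⟨w, w.2, rfl⟩ ⟨_, Submodule.add_mem_sup d.2 u.2, rfl⟩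
  · rintro _ ⟨w, hw, rfl⟩ _ ⟨v, hv, rfl⟩
    obtain ⟨d, hd, u, hu, rfl⟩ := Submodule.mem_sup.1 hv
    have h1 := g.2.1.1 w (d + u)
    have h2 : Φ.B w (d + u) = 0 := by rw [Φ.add_right, HD.wd w hw d hd, HD.wu w hw u hu, add_zero]
    rw [h2] at h1
    exact h1
  · intro x hx hxW hxU
    have hk : (⟨(g : V ≃ₗ[F] V)⁻¹ * x * (g : V ≃ₗ[F] V), mul_mem (mul_mem (inv_mem g.2) hx) g.2⟩ :
        ↥(Φ.Iso ⊓ slV F V)) ∈ (kk HD).range := by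
      have e1 : ∀ v : V, ((g : V ≃ₗ[F] V)⁻¹ * x * (g : V ≃ₗ[F] V)) v = (g : V ≃ₗ[F] V).symm (x ((g : V ≃ₗ[F] V) v)) :=
        fun v => rfl
      have e2 : ∀ v ∈ D ⊔ U, ((g : V ≃ₗ[F] V)⁻¹ * x * (g : V ≃ₗ[F] V)) v = v := by
        intro v hv
        have h1 : x ((g : V ≃ₗ[F] V) v) = (g : V ≃ₗ[F] V) v := hxU _ ⟨v, hv, rfl⟩
        rw [e1, h1, LinearEquiv.symm_apply_apply]
      have e3 : Inv ((g : V ≃ₗ[F] V)⁻¹ * x * (g : V ≃ₗ[F] V)) W := by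
        intro w hw
        obtain ⟨w', hw', h1⟩ := hxW _ ⟨w, hw, rfl⟩
        have h2 : x ((g : V ≃ₗ[F] V) w) = (g : V ≃ₗ[F] V) w' := h1.symm
        rw [e1, h2, LinearEquiv.symm_apply_apply]
        exact hw'
      obtain ⟨p, hp⟩ := HD.exists_Θ e3 (fun v hv => by rw [e2 v (Submodule.mem_sup_left hv)]; exact hv)
        (fun v hv => by rw [e2 v (Submodule.mem_sup_right hv)]; exact hv)
      have e4 : p.2.1 = 1 := by
        ext v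
        rw [← HD.Θ_D p v, hp, e2 v (Submodule.mem_sup_left v.2)]
        rfl
      have e5 : p.2.2 = 1 := by
        ext v
        rw [← HD.Θ_U p v, hp, e2 v (Submodule.mem_sup_right v.2)]
        rfl
      have e6 : p ∈ PS HD := mem_PS_of HD (mul_mem (mul_mem (inv_mem g.2) hx) g.2) hp
      have e7 := (mem_PS HD).1 e6
      refine ⟨⟨p.1, e7.1.1, ?_⟩, ?_⟩
      · have e8 := e7.2
        rw [e4, e5] at e8
        have e9 : LinearMap.det ((1 : D ≃ₗ[F] D) : D →ₗ[F] D) = 1 := LinearMap.det_id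
        have e10 : LinearMap.det ((1 : U ≃ₗ[F] U) : U →ₗ[F] U) = 1 := LinearMap.det_id
        rw [e9, e10, mul_one, mul_one] at e8
        exact e8
      · apply Subtype.ext
        have e11 : (p.1, (1 : D ≃ₗ[F] D), (1 : U ≃ₗ[F] U)) = p := Prod.ext rfl (Prod.ext e4.symm e5.symm)
        exact (congrArg HD.Θ e11).trans hp
    have h1 := hg _ hk
    have h2 : (g : V ≃ₗ[F] V) * ((g : V ≃ₗ[F] V)⁻¹ * x * (g : V ≃ₗ[F] V)) * (g : V ≃ₗ[F] V)⁻¹ ∈ H := h1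
    have h3 : (g : V ≃ₗ[F] V) * ((g : V ≃ₗ[F] V)⁻¹ * x * (g : V ≃ₗ[F] V)) * (g : V ≃ₗ[F] V)⁻¹ = x := by group
    rwa [h3] at h2

theorem htrick : HTrick := fun _ _ _ _ _ _ _ _ hc hε hKM hEM hEK hTI hz hcard hRB H hH =>
  Cfsg.Agent.H358.Bs.trick hc hε hKM hEM hEK hTI hz hcard hRB H hH

/-- **BS22**, in the form of `H847.Bs.S22`; the only other hypotheses are the count `S11` and BS06 (3). -/
theorem s22 (h11 : S11) (hadj : HAdj) : S22 := by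
  intro h40
  have hbase : HBase := by
    obtain ⟨ε, hε, h⟩ := h40
    exact ⟨ε, hε, fun r F V _ _ _ _ _ Φ hΦ hd => h F V r Φ hΦ hd⟩
  have hcount : HCount := by
    obtain ⟨c, hc, K₀, h⟩ := h11
    exact ⟨c, hc, K₀, fun r F V _ _ _ _ _ Φ hΦ n K hK hn hKn => h F V r Φ n K hΦ hK hn hKn⟩
  obtain ⟨c, hc, n₀, h⟩ := trick_su hbase hcount hadj htrick
  exact ⟨c, hc, n₀, fun F V _ _ _ _ _ r Φ hΦ hn H hH hlt => h r F V Φ hΦ hn H hH hlt⟩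

end Cfsg.Agent.H978.Bs
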