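import Cfsg.Agent.H978.Bs.Three

/-!
# S5733: hermitian spaces (helper978)

* `det_pow` : the determinant of an isometry is a root of unity of order `r + 1`;
* `exists_dec3` : `V = W ⟂ D ⟂ U` with given dimensions.
-/

set_option autoImplicit false
set_option linter.unusedSectionVars false

namespace Cfsg.Agent.H978.Bs

open Cfsg.Agent.H847.Bs Module

section

variable {F V : Type*} [Field F] [AddCommGroup V] [Module F V] {Φ : Frm F V} {r : ℕ}

theorem IsHerm_on (h : IsHerm r Φ) {X : Submodule F V} (hX : Φ.NdOn X) : IsHerm r (Φ.on X) where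
  nd x hx := Subtype.ext (hX x x.2 fun y hy => hx ⟨y, hy⟩)
  card := h.card
  s := h.s
  q x := h.q x
  symm x y := h.symm x y

theorem B_ne (h : IsHerm r Φ) [Nontrivial V] : ∃ x y, Φ.B x y ≠ 0 := by
  obtain ⟨x, hx⟩ := exists_ne (0 : V)
  by_contra hcon
  push Not at hcon
  exact hx (h.nd x (hcon x))

theorem herm_pow_add (h : IsHerm r Φ) [Nontrivial V] (a b : F) : (a + b) ^ r = a ^ r + b ^ r := by
  obtain ⟨x, y, hxy⟩ := B_ne h
  have h1 := Φ.smul_right (a + b) x y
  rw [add_smul, Φ.add_right, Φ.smul_right, Φ.smul_right, h.s, h.s, h.s, ← add_mul] at h1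
  exact (mul_right_cancel₀ hxy h1).symm

theorem r_ne_zero (h : IsHerm r Φ) [Finite F] : r ≠ 0 := by
  rintro rfl
  have h1 := h.card
  have h2 : 0 < Nat.card F := Nat.card_pos
  omega

/-- the field automorphism -/
def sig (h : IsHerm r Φ) [Nontrivial V] [Finite F] : F →+* F where
  toFun a := a ^ r
  map_one' := one_pow r
  map_mul' a b := mul_pow a b r
  map_zero' := zero_pow (r_ne_zero h)
  map_add' := herm_pow_add h

variable [Finite F] [Module.Finite F V]

theorem B_zero_right' (h : IsHerm r Φ) (x : V) : Φ.B x 0 = 0 :=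
  B_zero_right x (by rw [h.s, zero_pow (r_ne_zero h)])

theorem B_sum_left {ι : Type*} (t : Finset ι) (f : ι → V) (y : V) : Φ.B (∑ i ∈ t, f i) y = ∑ i ∈ t, Φ.B (f i) y := by
  classical
  induction t using Finset.induction_on with
  | empty => rw [Finset.sum_empty, Finset.sum_empty]; exact B_zero_left y
  | insert a s ha ih => rw [Finset.sum_insert ha, Finset.sum_insert ha, Φ.add_left, ih]

theorem B_sum_right (h : IsHerm r Φ) {ι : Type*} (t : Finset ι) (x : V) (f : ι → V) :
    Φ.B x (∑ i ∈ t, f i) = ∑ i ∈ t, Φ.B x (f i) := by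
  classical
  induction t using Finset.induction_on with
  | empty => rw [Finset.sum_empty, Finset.sum_empty]; exact B_zero_right' h x
  | insert a s ha ih => rw [Finset.sum_insert ha, Finset.sum_insert ha, Φ.add_right, ih]

theorem det_pow (h : IsHerm r Φ) {g : V ≃ₗ[F] V} (hg : g ∈ Φ.Iso) : LinearMap.det (g : V →ₗ[F] V) ^ (r + 1) = 1 := by
  rcases subsingleton_or_nontrivial V with hV | hV
  · rw [LinearMap.det_eq_one_of_subsingleton, one_pow]
  classical
  let b := Module.finBasis F V
  let G : Matrix (Fin (finrank F V)) (Fin (finrank F V)) F := Matrix.of fun i j => Φ.B (b i) (b j)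
  let A := LinearMap.toMatrix b b (g : V →ₗ[F] V)
  have hAe : ∀ i j, A i j = b.repr (g (b j)) i := fun i j => LinearMap.toMatrix_apply b b _ i j
  have hA : ∀ j, g (b j) = ∑ i, A i j • b i := by
    intro j
    conv_lhs => rw [← b.sum_repr (g (b j))]
    exact Finset.sum_congr rfl fun i _ => by rw [hAe]
  have h1 : A.transpose * G * A.map (sig h) = G := by
    ext j k
    have h2 := hg.1 (b j) (b k)
    rw [hA, hA, B_sum_left] at h2
    rw [Matrix.mul_apply]
    show _ = Φ.B (b j) (b k)
    rw [← h2]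
    simp only [Matrix.mul_apply, Matrix.transpose_apply, Matrix.map_apply, B_sum_right h, Φ.smul_left, Φ.smul_right, h.s,
      Finset.sum_mul]
    rw [Finset.sum_comm]
    refine Finset.sum_congr rfl fun i _ => Finset.sum_congr rfl fun l _ => ?_
    show A i j * Φ.B (b i) (b l) * (A l k) ^ r = A i j * ((A l k) ^ r * Φ.B (b i) (b l))
    ring
  have h2 : G.det ≠ 0 := by
    intro h0
    obtain ⟨v, hv, hv0⟩ := Matrix.exists_vecMul_eq_zero_iff.2 h0
    apply hv
    have h3 : ∑ i, v i • b i = 0 := by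
      apply h.nd
      intro y
      rw [← b.sum_repr y, B_sum_right h]
      refine Finset.sum_eq_zero fun j _ => ?_
      rw [Φ.smul_right, B_sum_left]
      have h4 := congrFun hv0 j
      have h5 : ∑ i, v i * Φ.B (b i) (b j) = 0 := h4
      have h6 : ∑ i, Φ.B (v i • b i) (b j) = 0 := by
        rw [← h5]
        exact Finset.sum_congr rfl fun i _ => Φ.smul_left _ _ _
      rw [h6, mul_zero]
    have h4 := b.linearIndependent
    rw [Fintype.linearIndependent_iff] at h4
    ext i
    exact h4 v h3 i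
  have h3 := congrArg Matrix.det h1
  rw [Matrix.det_mul, Matrix.det_mul, Matrix.det_transpose] at h3
  have h4 : (A.map (sig h)).det = A.det ^ r := by
    have h5 := (RingHom.map_det (sig h) A).symm
    exact h5
  rw [h4] at h3
  have h5 : A.det ^ (r + 1) * G.det = 1 * G.det := by
    rw [one_mul]
    calc A.det ^ (r + 1) * G.det = A.det * G.det * A.det ^ r := by ring
      _ = G.det := h3
  have h6 := mul_right_cancel₀ h2 h5
  rw [LinearMap.det_toMatrix] at h6
  exact h6

/-! ### Decompositions -/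

theorem r_gt (h : IsHerm r Φ) : 1 < r := by
  have h1 := h.card
  have h2 : 1 < Nat.card F := Finite.one_lt_card
  by_contra h3
  have h4 : r ≤ 1 := by omega
  have h5 : r ^ 2 ≤ 1 ^ 2 := Nat.pow_le_pow_left h4 2
  omega

theorem exists_pow_ne (h : IsHerm r Φ) : ∃ a : F, a ^ r ≠ a := by
  have hr := r_gt h
  have hc : Nat.card Fˣ = r ^ 2 - 1 := by rw [Nat.card_units, h.card]
  obtain ⟨u, hu⟩ := IsCyclic.exists_generator (α := Fˣ)
  have ho : orderOf u = r ^ 2 - 1 := by rw [orderOf_eq_card_of_forall_mem_zpowers hu, hc]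
  refine ⟨u, fun h1 => ?_⟩
  have h2 : u ^ r = u := by
    apply Units.ext
    rw [Units.val_pow_eq_pow_val, h1]
  have h3 : u ^ (r - 1) = 1 := by
    have h4 : u ^ (r - 1) * u = 1 * u := by
      rw [← pow_succ, Nat.sub_add_cancel hr.le, h2, one_mul]
    exact mul_right_cancel h4
  have h4 := orderOf_dvd_of_pow_eq_one h3
  rw [ho] at h4
  have h5 := Nat.le_of_dvd (by omega) h4
  have h6 : r * 2 ≤ r ^ 2 := by rw [pow_two]; exact Nat.mul_le_mul_left r hr
  omega

theorem exists_aniso (h : IsHerm r Φ) [Nontrivial V] : ∃ x, Φ.B x x ≠ 0 := by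
  by_contra hcon
  push Not at hcon
  obtain ⟨x, y, hxy⟩ := B_ne h
  obtain ⟨a, ha⟩ := exists_pow_ne h
  have key : ∀ y, Φ.B x y + Φ.B y x = 0 := by
    intro y
    have h1 := hcon (x + y)
    rwa [Φ.add_left, Φ.add_right, Φ.add_right, hcon x, hcon y, zero_add, add_zero] at h1
  have h1 := key y
  have h2 := key (a • y)
  rw [Φ.smul_left, Φ.smul_right, h.s] at h2
  have h3 : Φ.B y x = - Φ.B x y := eq_neg_of_add_eq_zero_right h1
  rw [h3] at h2
  have h4 : (a ^ r - a) * Φ.B x y = 0 := by rw [← h2]; ring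
  rcases mul_eq_zero.1 h4 with h5 | h5
  · exact ha (sub_eq_zero.1 h5)
  · exact hxy h5

/-- the orthogonal complement -/
def perp (Φ : Frm F V) (W : Submodule F V) : Submodule F V where
  carrier := {u | ∀ w ∈ W, Φ.B u w = 0}
  zero_mem' := fun w _ => B_zero_left w
  add_mem' := by
    intro a b ha hb w hw
    rw [Φ.add_left, ha w hw, hb w hw, add_zero]
  smul_mem' := by
    intro c a ha w hw
    rw [Φ.smul_left, ha w hw, mul_zero]

theorem perp_orth (W : Submodule F V) : Φ.Orth W (perp Φ W) := fun _ hx _ hy => Φ.refl _ _ (hy _ hx)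

theorem isCompl_perp (h : IsHerm r Φ) {W : Submodule F V} (hW : Φ.NdOn W) : IsCompl W (perp Φ W) := by
  have hd : Disjoint W (perp Φ W) := by
    rw [Submodule.disjoint_def]
    exact fun x h1 h2 => hW x h1 h2
  let b := Module.finBasis F W
  let f : V →ₗ[F] (Fin (finrank F W) → F) :=
    { toFun := fun x i => Φ.B x (b i)
      map_add' := fun x y => by ext i; exact Φ.add_left _ _ _
      map_smul' := fun a x => by ext i; exact Φ.smul_left _ _ _ }
  have hf : LinearMap.ker f ≤ perp Φ W := by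
    intro x hx w hw
    have h1 : ∀ i, Φ.B x (b i) = 0 := fun i => congrFun (LinearMap.mem_ker.1 hx) i
    have h2 : w = ∑ i, (b.repr ⟨w, hw⟩ i) • (b i : V) := by
      have h3 : W.subtype (∑ i, (b.repr ⟨w, hw⟩ i) • b i) = w := by rw [b.sum_repr]; rfl
      rw [map_sum] at h3
      exact h3.symm
    rw [h2, B_sum_right h]
    refine Finset.sum_eq_zero fun i _ => ?_
    rw [Φ.smul_right, h1, mul_zero]
  have h1 := LinearMap.finrank_range_add_finrank_ker f
  have h2 : finrank F (LinearMap.range f) ≤ finrank F W := by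
    have h3 := Submodule.finrank_le (LinearMap.range f)
    rwa [Module.finrank_fin_fun] at h3
  have h3 := Submodule.finrank_mono hf
  have h4 := Submodule.finrank_sup_add_finrank_inf_eq W (perp Φ W)
  rw [hd.eq_bot, finrank_bot] at h4
  have h5 : W ⊔ perp Φ W = ⊤ := by
    apply Submodule.eq_top_of_finrank_eq
    have h6 := Submodule.finrank_le (W ⊔ perp Φ W)
    omega
  exact ⟨hd, codisjoint_iff.2 h5⟩

theorem nd_perp (h : IsHerm r Φ) {W : Submodule F V} (hW : Φ.NdOn W) : Φ.NdOn (perp Φ W) := by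
  intro x hx hy
  apply h.nd
  intro y
  have h1 : y ∈ W ⊔ perp Φ W := by rw [(isCompl_perp h hW).sup_eq_top]; trivial
  obtain ⟨w, hw, u, hu, rfl⟩ := Submodule.mem_sup.1 h1
  rw [Φ.add_right, hx w hw, hy u hu, add_zero]

theorem exists_nd (h : IsHerm r Φ) {k : ℕ} (hk : k ≤ finrank F V) : ∃ W : Submodule F V, Φ.NdOn W ∧ finrank F W = k := by
  induction k with
  | zero => exact ⟨⊥, fun x hx _ => (Submodule.mem_bot F).1 hx, finrank_bot F V⟩
  | succ k ih =>
    obtain ⟨W, hW, hWk⟩ := ih (by omega)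
    have hP := nd_perp h hW
    have hc := Submodule.finrank_add_eq_of_isCompl (isCompl_perp h hW)
    have hnt : Nontrivial (perp Φ W) := by
      apply Module.nontrivial_of_finrank_pos (R := F)
      omega
    obtain ⟨⟨x, hx⟩, hxx⟩ := exists_aniso (IsHerm_on h hP)
    replace hxx : Φ.B x x ≠ 0 := hxx
    have hx0 : x ≠ 0 := by
      rintro rfl
      exact hxx (B_zero_left 0)
    refine ⟨W ⊔ Submodule.span F {x}, ?_, ?_⟩
    · intro z hz hzy
      obtain ⟨w, hw, _, hy, rfl⟩ := Submodule.mem_sup.1 hz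
      obtain ⟨a, rfl⟩ := Submodule.mem_span_singleton.1 hy
      have h1 : w = 0 := by
        apply hW w hw
        intro w' hw'
        have h2 := hzy w' (Submodule.mem_sup_left hw')
        rwa [Φ.add_left, Φ.smul_left, hx w' hw', mul_zero, add_zero] at h2
      have h2 := hzy x (Submodule.mem_sup_right (Submodule.mem_span_singleton_self x))
      rw [h1, zero_add, Φ.smul_left] at h2
      have h3 : a = 0 := (mul_eq_zero.1 h2).resolve_right hxx
      rw [h1, h3, zero_smul, add_zero]
    · have h1 : W ⊓ Submodule.span F {x} = ⊥ := by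
        rw [eq_bot_iff]
        rintro z ⟨hz1, hz2⟩
        obtain ⟨a, rfl⟩ := Submodule.mem_span_singleton.1 hz2
        rw [Submodule.mem_bot]
        have h3 : Φ.B (a • x) (a • x) = 0 := by
          rw [Φ.smul_left, hx _ hz1, mul_zero]
        rw [Φ.smul_left, Φ.smul_right, h.s, mul_eq_zero, mul_eq_zero] at h3
        have h4 : a = 0 := by
          rcases h3 with h3 | h3 | h3
          · exact h3
          · exact pow_eq_zero_iff (r_ne_zero h) |>.1 h3
          · exact absurd h3 hxx
        rw [h4, zero_smul]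
      have h2 := Submodule.finrank_sup_add_finrank_inf_eq W (Submodule.span F {x})
      rw [h1, finrank_bot, finrank_span_singleton hx0, hWk] at h2
      omega

theorem exists_dec3 (h : IsHerm r Φ) {a b : ℕ} (hab : a + b ≤ finrank F V) : ∃ W D U : Submodule F V,
    Dec3 Φ W D U ∧ finrank F W = a ∧ finrank F D = b ∧ a + b + finrank F U = finrank F V := by
  obtain ⟨W, hW, hWa⟩ := exists_nd h (show a ≤ finrank F V by omega)
  have hP := nd_perp h hW
  have hc := isCompl_perp h hW
  have hcf := Submodule.finrank_add_eq_of_isCompl hc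
  have hH := IsHerm_on h hP
  obtain ⟨D, hD, hDb⟩ := exists_nd hH (show b ≤ finrank F (perp Φ W) by omega)
  have hQ := nd_perp hH hD
  have hc' := isCompl_perp hH hD
  have hcf' := Submodule.finrank_add_eq_of_isCompl hc'
  have hm : ∀ X : Submodule F (perp Φ W), finrank F (X.map (perp Φ W).subtype) = finrank F X := fun X =>
    Submodule.finrank_map_subtype_eq (perp Φ W) X
  refine ⟨W, D.map (perp Φ W).subtype, (perp (Φ.on (perp Φ W)) D).map (perp Φ W).subtype, ⟨?_, ?_, ?_, ?_, hW, ?_, ?_⟩,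
    hWa, by rw [hm, hDb], by rw [hm]; omega⟩
  · intro x
    have h1 : x ∈ W ⊔ perp Φ W := by rw [hc.sup_eq_top]; trivial
    obtain ⟨w, hw, u, hu, rfl⟩ := Submodule.mem_sup.1 h1
    have h2 : (⟨u, hu⟩ : perp Φ W) ∈ D ⊔ perp (Φ.on (perp Φ W)) D := by rw [hc'.sup_eq_top]; trivial
    obtain ⟨d, hd, u', hu', h3⟩ := Submodule.mem_sup.1 h2
    refine ⟨w, hw, d, ⟨d, hd, rfl⟩, u', ⟨u', hu', rfl⟩, ?_⟩
    have h4 := congrArg Subtype.val h3
    have h5 : (d : V) + u' = u := h4
    rw [add_assoc, h5]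
  · rintro x hx _ ⟨d, hd, rfl⟩
    exact Φ.refl _ _ (d.2 x hx)
  · rintro x hx _ ⟨d, hd, rfl⟩
    exact Φ.refl _ _ (d.2 x hx)
  · rintro _ ⟨d, hd, rfl⟩ _ ⟨u, hu, rfl⟩
    exact perp_orth (Φ := Φ.on (perp Φ W)) D d hd u hu
  · rintro _ ⟨d, hd, rfl⟩ hy
    exact congrArg Subtype.val (hD d hd fun y hyD => hy _ ⟨y, hyD, rfl⟩)
  · rintro _ ⟨d, hd, rfl⟩ hy
    exact congrArg Subtype.val (hQ d hd fun y hyD => hy _ ⟨y, hyD, rfl⟩)

end

end Cfsg.Agent.H978.Bs
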