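import Cfsg.Agent.H847.Bs.Defs2

/-!
# S5733: orthogonal decompositions into three subspaces (helper978)
-/

set_option autoImplicit false
set_option linter.unusedSectionVars false

namespace Cfsg.Agent.H978.Bs

open Cfsg.Agent.H847.Bs Module

section

variable {F V : Type*} [Field F] [AddCommGroup V] [Module F V] {Φ : Frm F V}

theorem B_zero_left (y : V) : Φ.B 0 y = 0 := by
  have h := Φ.smul_left 0 0 y
  rwa [zero_smul, zero_mul] at h

theorem B_zero_right (x : V) (hs : Φ.s 0 = 0) : Φ.B x 0 = 0 := by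
  have h := Φ.smul_right 0 x 0
  rwa [zero_smul, hs, zero_mul] at h

theorem Orth.symm {D U : Submodule F V} (h : Φ.Orth D U) : Φ.Orth U D := fun x hx y hy => Φ.refl _ _ (h y hy x hx)

/-- `V = W ⟂ D ⟂ U` -/
structure Dec3 (Φ : Frm F V) (W D U : Submodule F V) : Prop where
  sum : ∀ x : V, ∃ w ∈ W, ∃ d ∈ D, ∃ u ∈ U, w + d + u = x
  wd : Φ.Orth W D
  wu : Φ.Orth W U
  du : Φ.Orth D U
  nw : Φ.NdOn W
  nd : Φ.NdOn D
  nu : Φ.NdOn U

variable {W D U : Submodule F V}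

namespace Dec3

variable (H : Dec3 Φ W D U)
include H

theorem indep {w d u : V} (hw : w ∈ W) (hd : d ∈ D) (hu : u ∈ U) (h : w + d + u = 0) : w = 0 ∧ d = 0 ∧ u = 0 := by
  refine ⟨H.nw w hw fun y hy => ?_, H.nd d hd fun y hy => ?_, H.nu u hu fun y hy => ?_⟩
  · have h1 : Φ.B (w + d + u) y = 0 := by rw [h]; exact B_zero_left y
    rwa [Φ.add_left, Φ.add_left, Orth.symm H.wd d hd y hy, Orth.symm H.wu u hu y hy, add_zero, add_zero] at h1
  · have h1 : Φ.B (w + d + u) y = 0 := by rw [h]; exact B_zero_left y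
    rwa [Φ.add_left, Φ.add_left, H.wd w hw y hy, Orth.symm H.du u hu y hy, add_zero, zero_add] at h1
  · have h1 : Φ.B (w + d + u) y = 0 := by rw [h]; exact B_zero_left y
    rwa [Φ.add_left, Φ.add_left, H.wu w hw y hy, H.du d hd y hy, add_zero, zero_add] at h1

theorem bij : Function.Bijective (W.subtype.coprod (D.subtype.coprod U.subtype)) := by
  constructor
  · rw [injective_iff_map_eq_zero]
    rintro ⟨w, d, u⟩ h
    have h1 : (w : V) + d + u = 0 := by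
      have h2 : (w : V) + (d + u) = 0 := h
      rw [add_assoc]; exact h2
    obtain ⟨h2, h3, h4⟩ := H.indep w.2 d.2 u.2 h1
    rw [Submodule.coe_eq_zero] at h2 h3 h4
    rw [h2, h3, h4]
    rfl
  · intro x
    obtain ⟨w, hw, d, hd, u, hu, h⟩ := H.sum x
    refine ⟨(⟨w, hw⟩, ⟨d, hd⟩, ⟨u, hu⟩), ?_⟩
    show w + (d + u) = x
    rw [← add_assoc, h]

/-- coordinates -/
noncomputable def e : (W × D × U) ≃ₗ[F] V := LinearEquiv.ofBijective _ H.bij

theorem e_apply (w : W) (d : D) (u : U) : H.e (w, d, u) = (w : V) + (d + u) := rfl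

/-- the automorphism with given restrictions -/
noncomputable def Θ : (W ≃ₗ[F] W) × (D ≃ₗ[F] D) × (U ≃ₗ[F] U) →* (V ≃ₗ[F] V) where
  toFun p := H.e.symm ≪≫ₗ (p.1.prodCongr (p.2.1.prodCongr p.2.2)) ≪≫ₗ H.e
  map_one' := by
    ext x
    show H.e (H.e.symm x) = x
    exact H.e.apply_symm_apply x
  map_mul' p p' := by
    ext x
    show H.e _ = H.e ((p.1.prodCongr (p.2.1.prodCongr p.2.2)) (H.e.symm (H.e _)))
    rw [H.e.symm_apply_apply]
    rfl

theorem Θ_apply (p : (W ≃ₗ[F] W) × (D ≃ₗ[F] D) × (U ≃ₗ[F] U)) (w : W) (d : D) (u : U) :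
    H.Θ p ((w : V) + (d + u)) = (p.1 w : V) + (p.2.1 d + p.2.2 u) := by
  rw [← e_apply H]
  show H.e ((p.1.prodCongr (p.2.1.prodCongr p.2.2)) (H.e.symm (H.e _))) = _
  rw [H.e.symm_apply_apply]
  rfl

theorem Θ_W (p : (W ≃ₗ[F] W) × (D ≃ₗ[F] D) × (U ≃ₗ[F] U)) (w : W) : H.Θ p (w : V) = p.1 w := by
  have h := H.Θ_apply p w 0 0
  simpa using h

theorem Θ_D (p : (W ≃ₗ[F] W) × (D ≃ₗ[F] D) × (U ≃ₗ[F] U)) (d : D) : H.Θ p (d : V) = p.2.1 d := by
  have h := H.Θ_apply p 0 d 0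
  simpa using h

theorem Θ_U (p : (W ≃ₗ[F] W) × (D ≃ₗ[F] D) × (U ≃ₗ[F] U)) (u : U) : H.Θ p (u : V) = p.2.2 u := by
  have h := H.Θ_apply p 0 0 u
  simpa using h

theorem Θ_inj : Function.Injective H.Θ := by
  intro p p' h
  refine Prod.ext ?_ (Prod.ext ?_ ?_)
  · ext w
    rw [← H.Θ_W p w, h, H.Θ_W]
  · ext w
    rw [← H.Θ_D p w, h, H.Θ_D]
  · ext w
    rw [← H.Θ_U p w, h, H.Θ_U]

theorem Θ_det [Module.Finite F V] (p : (W ≃ₗ[F] W) × (D ≃ₗ[F] D) × (U ≃ₗ[F] U)) :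
    LinearMap.det (H.Θ p : V →ₗ[F] V) = LinearMap.det (p.1 : W →ₗ[F] W) *
      (LinearMap.det (p.2.1 : D →ₗ[F] D) * LinearMap.det (p.2.2 : U →ₗ[F] U)) := by
  have h : (H.Θ p : V →ₗ[F] V) = (H.e : (W × D × U) →ₗ[F] V) ∘ₗ (LinearMap.prodMap (p.1 : W →ₗ[F] W)
      (LinearMap.prodMap (p.2.1 : D →ₗ[F] D) (p.2.2 : U →ₗ[F] U))) ∘ₗ (H.e.symm : V →ₗ[F] (W × D × U)) := rfl
  rw [h, LinearMap.det_conj, LinearMap.det_prodMap, LinearMap.det_prodMap]

theorem B_sum (w w' : W) (d d' : D) (u u' : U) :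
    Φ.B ((w : V) + (d + u)) ((w' : V) + (d' + u')) = Φ.B w w' + (Φ.B d d' + Φ.B u u') := by
  rw [Φ.add_left, Φ.add_left, Φ.add_right, Φ.add_right, Φ.add_right, Φ.add_right, Φ.add_right, Φ.add_right,
    H.wd w w.2 d' d'.2, H.wu w w.2 u' u'.2, Orth.symm H.wd d d.2 w' w'.2, H.du d d.2 u' u'.2,
    Orth.symm H.wu u u.2 w' w'.2, Orth.symm H.du u u.2 d' d'.2]
  ring

theorem q_sum (w : W) (d : D) (u : U) : Φ.q ((w : V) + (d + u)) = Φ.q w + (Φ.q d + Φ.q u) := by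
  rw [Φ.q_add, Φ.q_add _ _ (H.du d d.2 u u.2)]
  rw [Φ.add_right, H.wd w w.2 d d.2, H.wu w w.2 u u.2, add_zero]

theorem exists_sum (x : V) : ∃ (w : W) (d : D) (u : U), x = (w : V) + (d + u) := by
  obtain ⟨w, hw, d, hd, u, hu, h⟩ := H.sum x
  exact ⟨⟨w, hw⟩, ⟨d, hd⟩, ⟨u, hu⟩, by rw [← h]; exact add_assoc _ _ _⟩

theorem Θ_mem (p : (W ≃ₗ[F] W) × (D ≃ₗ[F] D) × (U ≃ₗ[F] U)) : H.Θ p ∈ Φ.Iso ↔
    p.1 ∈ (Φ.on W).Iso ∧ p.2.1 ∈ (Φ.on D).Iso ∧ p.2.2 ∈ (Φ.on U).Iso := by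
  constructor
  · rintro ⟨h1, h2⟩
    refine ⟨⟨fun x y => ?_, fun x => ?_⟩, ⟨fun x y => ?_, fun x => ?_⟩, ⟨fun x y => ?_, fun x => ?_⟩⟩
    · have := h1 x y
      rwa [H.Θ_W, H.Θ_W] at this
    · have := h2 x
      rwa [H.Θ_W] at this
    · have := h1 x y
      rwa [H.Θ_D, H.Θ_D] at this
    · have := h2 x
      rwa [H.Θ_D] at this
    · have := h1 x y
      rwa [H.Θ_U, H.Θ_U] at this
    · have := h2 x
      rwa [H.Θ_U] at this
  · rintro ⟨⟨a1, a2⟩, ⟨b1, b2⟩, c1, c2⟩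
    refine ⟨fun x y => ?_, fun x => ?_⟩
    · obtain ⟨w, d, u, rfl⟩ := H.exists_sum x
      obtain ⟨w', d', u', rfl⟩ := H.exists_sum y
      rw [H.Θ_apply, H.Θ_apply, H.B_sum, H.B_sum]
      have e1 : Φ.B (p.1 w : V) (p.1 w') = Φ.B w w' := a1 w w'
      have e2 : Φ.B (p.2.1 d : V) (p.2.1 d') = Φ.B d d' := b1 d d'
      have e3 : Φ.B (p.2.2 u : V) (p.2.2 u') = Φ.B u u' := c1 u u'
      rw [e1, e2, e3]
    · obtain ⟨w, d, u, rfl⟩ := H.exists_sum x
      rw [H.Θ_apply, H.q_sum, H.q_sum]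
      have e1 : Φ.q (p.1 w : V) = Φ.q w := a2 w
      have e2 : Φ.q (p.2.1 d : V) = Φ.q d := b2 d
      have e3 : Φ.q (p.2.2 u : V) = Φ.q u := c2 u
      rw [e1, e2, e3]

end Dec3

/-- restriction to an invariant subspace -/
theorem exists_res [Module.Finite F V] {g : V ≃ₗ[F] V} {W : Submodule F V} (h : Inv g W) :
    ∃ a : W ≃ₗ[F] W, ∀ w : W, (a w : V) = g w := by
  let f : W →ₗ[F] W := (g : V →ₗ[F] V).restrict (p := W) (q := W) h
  have hf : Function.Injective f := by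
    intro x y hxy
    apply Subtype.ext
    apply g.injective
    exact congrArg Subtype.val hxy
  exact ⟨LinearEquiv.ofInjectiveEndo f hf, fun w => rfl⟩

theorem Dec3.exists_Θ [Module.Finite F V] (H : Dec3 Φ W D U) {g : V ≃ₗ[F] V} (hW : Inv g W) (hD : Inv g D) (hU : Inv g U) :
    ∃ p, H.Θ p = g := by
  obtain ⟨a, ha⟩ := exists_res hW
  obtain ⟨b, hb⟩ := exists_res hD
  obtain ⟨c, hc⟩ := exists_res hU
  refine ⟨(a, b, c), ?_⟩
  ext x
  obtain ⟨w, d, u, rfl⟩ := H.exists_sum x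
  rw [H.Θ_apply, map_add, map_add, ha, hb, hc]

/-! ### The elements `Θ (a, b, v)`, `b` irreducible, `v` without small invariant subspaces -/

section ti

variable [Module.Finite F V]

/-- `b` is irreducible, the nonzero `v`-invariant subspaces have dimension more than `K`, `dim W < dim D ≤ K` -/
structure Big (H : Dec3 Φ W D U) (K : ℕ) (p : (W ≃ₗ[F] W) × (D ≃ₗ[F] D) × (U ≃ₗ[F] U)) : Prop where
  irr : Irr p.2.1 ⊤
  big : ∀ Y : Submodule F U, Inv p.2.2 Y → Y ≠ ⊥ → K < finrank F Y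
  wd : finrank F W < finrank F D
  dK : finrank F D ≤ K

variable {H : Dec3 Φ W D U} {K : ℕ} {p : (W ≃ₗ[F] W) × (D ≃ₗ[F] D) × (U ≃ₗ[F] U)}

/-- small invariant subspaces lie in `W ⊕ D` -/
theorem Big.le (E : Big H K p) {Y : Submodule F V} (hY : Inv (H.Θ p) Y) (hc : finrank F Y ≤ K) {x : V} (hx : x ∈ Y) :
    ∃ (w : W) (d : D), x = (w : V) + d := by
  let π : V →ₗ[F] U := (LinearMap.snd F D U) ∘ₗ (LinearMap.snd F W (D × U)) ∘ₗ (H.e.symm : V →ₗ[F] (W × D × U))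
  have hπ : ∀ (w : W) (d : D) (u : U), π ((w : V) + (d + u)) = u := by
    intro w d u
    rw [← Dec3.e_apply H]
    show ((H.e.symm (H.e (w, d, u))).2).2 = u
    rw [H.e.symm_apply_apply]
  have hinv : Inv p.2.2 (Y.map π) := by
    rintro _ ⟨y, hy, rfl⟩
    refine ⟨H.Θ p y, hY y hy, ?_⟩
    obtain ⟨w, d, u, rfl⟩ := H.exists_sum y
    rw [H.Θ_apply, hπ, hπ]
  have h1 : Y.map π = ⊥ := by
    by_contra h
    have h2 := E.big _ hinv h
    have h3 := Submodule.finrank_map_le π Y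
    omega
  obtain ⟨w, d, u, rfl⟩ := H.exists_sum x
  have h2 : π ((w : V) + (d + u)) ∈ Y.map π := ⟨_, hx, rfl⟩
  rw [h1, Submodule.mem_bot, hπ] at h2
  exact ⟨w, d, by rw [h2, Submodule.coe_zero, add_zero]⟩

theorem Big.inv_D (_E : Big H K p) : Inv (H.Θ p) D := by
  intro d hd
  rw [H.Θ_D p ⟨d, hd⟩]
  exact (p.2.1 _).2

theorem Big.inv_W (_E : Big H K p) : Inv (H.Θ p) W := by
  intro d hd
  rw [H.Θ_W p ⟨d, hd⟩]
  exact (p.1 _).2

theorem Big.D_irr (E : Big H K p) : ∀ Y ≤ D, Inv (H.Θ p) Y → Y = ⊥ ∨ Y = D := by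
  intro Y hY hi
  have h1 : Inv p.2.1 (Y.comap D.subtype) := by
    intro d hd
    have h2 := hi _ hd
    rw [Submodule.subtype_apply, H.Θ_D] at h2
    exact h2
  rcases E.irr.min _ le_top h1 with h | h
  · left
    rw [eq_bot_iff]
    intro y hy
    have h2 : (⟨y, hY hy⟩ : D) ∈ Y.comap D.subtype := hy
    rw [h, Submodule.mem_bot] at h2
    exact congrArg Subtype.val h2
  · right
    exact le_antisymm hY (Submodule.comap_subtype_eq_top.1 h)

/-- `D` is the only irreducible invariant subspace of its dimension -/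
theorem Big.uniq (E : Big H K p) {Y : Submodule F V} (hY : Inv (H.Θ p) Y) (hirr : ∀ Z ≤ Y, Inv (H.Θ p) Z → Z = ⊥ ∨ Z = Y)
    (hc : finrank F Y = finrank F D) : Y = D := by
  have h1 : Inv (H.Θ p) (Y ⊓ D) := fun x hx => ⟨hY x hx.1, E.inv_D x hx.2⟩
  rcases hirr _ inf_le_left h1 with h | h
  · exfalso
    let π : V →ₗ[F] W := (LinearMap.fst F W (D × U)) ∘ₗ (H.e.symm : V →ₗ[F] (W × D × U))
    have hπ : ∀ (w : W) (d : D) (u : U), π ((w : V) + (d + u)) = w := by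
      intro w d u
      rw [← Dec3.e_apply H]
      show ((H.e.symm (H.e (w, d, u))).1) = w
      rw [H.e.symm_apply_apply]
    have hinj : Function.Injective (π.domRestrict Y) := by
      rw [injective_iff_map_eq_zero]
      rintro ⟨y, hy⟩ h2
      obtain ⟨w, d, rfl⟩ := E.le hY (by rw [hc]; exact E.dK) hy
      have h3 : π ((w : V) + d) = 0 := h2
      have h4 := hπ w d 0
      rw [Submodule.coe_zero, add_zero, h3] at h4
      have h5 : (w : V) + d = d := by rw [← h4, Submodule.coe_zero, zero_add]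
      have h6 : (w : V) + d ∈ Y ⊓ D := ⟨hy, by rw [h5]; exact d.2⟩
      rw [h, Submodule.mem_bot] at h6
      exact Subtype.ext h6
    have h2 := LinearMap.finrank_le_finrank_of_injective hinj
    have := E.wd
    omega
  · have h2 : Y ≤ D := by rw [← h]; exact inf_le_right
    exact Submodule.eq_of_le_of_finrank_eq h2 hc

/-- an isometry which takes a big element to a big element -/
theorem Big.ti {p' : (W ≃ₗ[F] W) × (D ≃ₗ[F] D) × (U ≃ₗ[F] U)} (E : Big H K p) (E' : Big H K p') {g : V ≃ₗ[F] V}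
    (hg : g ∈ Φ.Iso) (h : g * H.Θ p * g⁻¹ = H.Θ p') : Inv g W ∧ Inv g D ∧ Inv g U := by
  have hc : ∀ x : V, H.Θ p' (g x) = g (H.Θ p x) := by
    intro x
    rw [← h]
    show g (H.Θ p (g.symm (g x))) = _
    rw [g.symm_apply_apply]
  have hmap : ∀ Y : Submodule F V, Inv (H.Θ p) Y → Inv (H.Θ p') (Y.map (g : V →ₗ[F] V)) := by
    rintro Y hY _ ⟨y, hy, rfl⟩
    exact ⟨_, hY y hy, (hc y).symm⟩
  have hfr : ∀ Y : Submodule F V, finrank F (Y.map (g : V →ₗ[F] V)) = finrank F Y := fun Y =>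
    LinearEquiv.finrank_map_eq g Y
  have hD : D.map (g : V →ₗ[F] V) = D := by
    refine E'.uniq (hmap D E.inv_D) ?_ (hfr D)
    intro Z hZ hi
    have h1 : Inv (H.Θ p) (Z.comap (g : V →ₗ[F] V)) := by
      intro x hx
      have h2 := hi _ hx
      have h3 : H.Θ p' (g x) ∈ Z := h2
      rw [hc] at h3
      exact h3
    have h2 : Z.comap (g : V →ₗ[F] V) ≤ D := by
      intro x hx
      obtain ⟨y, hy, hxy⟩ := hZ hx
      have : y = x := g.injective hxy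
      rwa [← this]
    have h3 : (Z.comap (g : V →ₗ[F] V)).map (g : V →ₗ[F] V) = Z :=
      Submodule.map_comap_eq_of_surjective g.surjective Z
    rcases E.D_irr _ h2 h1 with h | h
    · left
      rw [← h3, h, Submodule.map_bot]
    · right
      rw [← h3, h]
  have hDi : Inv g D := fun d hd => by rw [← hD]; exact ⟨d, hd, rfl⟩
  have hWi : Inv g W := by
    intro w hw
    have h1 : g w ∈ W.map (g : V →ₗ[F] V) := ⟨w, hw, rfl⟩
    obtain ⟨w', d', h2⟩ := E'.le (hmap W E.inv_W) (by rw [hfr]; have := E.wd; have := E.dK; omega) h1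
    have h3 : (d' : V) = 0 := by
      apply H.nd d' d'.2
      intro y hy
      rw [← hD] at hy
      obtain ⟨z, hz, rfl⟩ := hy
      have h4 : Φ.B (g w) (g z) = 0 := by rw [hg.1]; exact H.wd w hw z hz
      rw [h2, Φ.add_left] at h4
      have h5 : Φ.B (w' : V) (g z) = 0 := H.wd w' w'.2 _ (hDi z hz)
      rw [h5, zero_add] at h4
      exact h4
    rw [h2, h3, add_zero]
    exact w'.2
  have hW : W.map (g : V →ₗ[F] V) = W := by
    refine Submodule.eq_of_le_of_finrank_eq ?_ (hfr W)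
    rintro _ ⟨w, hw, rfl⟩
    exact hWi w hw
  refine ⟨hWi, hDi, ?_⟩
  intro u hu
  obtain ⟨w', d', u', h1⟩ := H.exists_sum (g u)
  have h2 : (w' : V) = 0 := by
    apply H.nw w' w'.2
    intro y hy
    rw [← hW] at hy
    obtain ⟨z, hz, rfl⟩ := hy
    have h4 : Φ.B (g u) (g z) = 0 := by rw [hg.1]; exact Orth.symm H.wu u hu z hz
    rw [h1, Φ.add_left, Φ.add_left] at h4
    have h5 : Φ.B (d' : V) (g z) = 0 := Orth.symm H.wd d' d'.2 _ (hWi z hz)
    have h6 : Φ.B (u' : V) (g z) = 0 := Orth.symm H.wu u' u'.2 _ (hWi z hz)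
    rw [h5, h6, add_zero, add_zero] at h4
    exact h4
  have h3 : (d' : V) = 0 := by
    apply H.nd d' d'.2
    intro y hy
    rw [← hD] at hy
    obtain ⟨z, hz, rfl⟩ := hy
    have h4 : Φ.B (g u) (g z) = 0 := by rw [hg.1]; exact Orth.symm H.du u hu z hz
    rw [h1, Φ.add_left, Φ.add_left] at h4
    have h5 : Φ.B (w' : V) (g z) = 0 := H.wd w' w'.2 _ (hDi z hz)
    have h6 : Φ.B (u' : V) (g z) = 0 := Orth.symm H.du u' u'.2 _ (hDi z hz)
    rw [h5, h6, zero_add, add_zero] at h4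
    exact h4
  rw [h1, h2, h3, zero_add, zero_add]
  exact u'.2

end ti

end

end Cfsg.Agent.H978.Bs
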